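import Cfsg.Agent.H99.O8.Count
import Cfsg.Agent.ClassicalGeometry.OrthAut4
import Cfsg.Agent.H965.ASCount

/-!
# S3943, the row `Ω⁺₈(2)` (helper99): automorphisms
-/

set_option autoImplicit false
set_option linter.unusedSectionVars false

namespace Cfsg.Agent.H99.O8

open Module Subgroup QuadraticMap Cfsg.Agent.H518.DghpFix Cfsg.Agent.H99.AS Cfsg.Agent.LieClassical.OrthCore
  Cfsg.Agent.LieClassical.OrthTrans Cfsg.Agent.ClassicalGeometry.OrthAut1 Cfsg.Agent.AutOrth.SemiSim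
  Cfsg.Agent.AutOrth.Gen

universe u v w

variable {F : Type u} [Field F] [Fintype F] {V : Type v} [AddCommGroup V] [Module F V] [FiniteDimensional F V]

variable {Q : QuadraticForm F V}

/-- conjugation by an isometry -/
def cE (h : ↥(O Q)) : MulAut ↥(E Q) where
  toFun g := ⟨(h : V ≃ₗ[F] V) * g * (h : V ≃ₗ[F] V)⁻¹, conj_mem_E h.2 g.2⟩
  invFun g := ⟨(h : V ≃ₗ[F] V)⁻¹ * g * (h : V ≃ₗ[F] V)⁻¹⁻¹, conj_mem_E (inv_mem h.2) g.2⟩
  left_inv g := Subtype.ext (by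
    show (h : V ≃ₗ[F] V)⁻¹ * ((h : V ≃ₗ[F] V) * g * (h : V ≃ₗ[F] V)⁻¹) * (h : V ≃ₗ[F] V)⁻¹⁻¹ = g
    group)
  right_inv g := Subtype.ext (by
    show (h : V ≃ₗ[F] V) * ((h : V ≃ₗ[F] V)⁻¹ * g * (h : V ≃ₗ[F] V)⁻¹⁻¹) * (h : V ≃ₗ[F] V)⁻¹ = g
    group)
  map_mul' a b := Subtype.ext (by
    show (h : V ≃ₗ[F] V) * (a * b) * (h : V ≃ₗ[F] V)⁻¹ =
      (h : V ≃ₗ[F] V) * a * (h : V ≃ₗ[F] V)⁻¹ * ((h : V ≃ₗ[F] V) * b * (h : V ≃ₗ[F] V)⁻¹)
    group)

omit [Fintype F] [FiniteDimensional F V] in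
theorem coe_cE (h : ↥(O Q)) (g : ↥(E Q)) :
    ((cE h g : ↥(E Q)) : V ≃ₗ[F] V) = (h : V ≃ₗ[F] V) * g * (h : V ≃ₗ[F] V)⁻¹ := rfl

/-- the homomorphism -/
def cEh (Q : QuadraticForm F V) : ↥(O Q) →* MulAut ↥(E Q) where
  toFun := cE
  map_one' := MulEquiv.ext fun g => Subtype.ext (by
    rw [coe_cE]
    show (1 : V ≃ₗ[F] V) * g * (1 : V ≃ₗ[F] V)⁻¹ = g
    group)
  map_mul' a b := MulEquiv.ext fun g => Subtype.ext (by
    show ((a : V ≃ₗ[F] V) * b) * g * ((a : V ≃ₗ[F] V) * b)⁻¹ =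
      (a : V ≃ₗ[F] V) * ((b : V ≃ₗ[F] V) * g * (b : V ≃ₗ[F] V)⁻¹) * (a : V ≃ₗ[F] V)⁻¹
    group)

theorem center_bot (hF : Fintype.card F = 2) (hG : Good Q) : Subgroup.center ↥(E Q) = ⊥ := by
  rw [Subgroup.eq_bot_iff_forall]
  intro z hz
  obtain ⟨c, hc⟩ := center_scalar hG hz
  apply Subtype.ext
  refine LinearEquiv.ext fun v => ?_
  rcases eq01 hF c with rfl | rfl
  · have h1 := hc v
    rw [zero_smul] at h1
    have h2 : v = 0 := (z : V ≃ₗ[F] V).injective (by rw [h1, map_zero])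
    rw [h2, map_zero, map_zero]
  · rw [hc v, one_smul]
    rfl

/-- `E Q` is its own projective image -/
noncomputable def eP (hF : Fintype.card F = 2) (hG : Good Q) : ↥(E Q) ≃* P Q :=
  MulEquiv.ofBijective (QuotientGroup.mk' (Subgroup.center ↥(E Q)))
    ⟨(MonoidHom.ker_eq_bot_iff _).1 (by rw [QuotientGroup.ker_mk', center_bot hF hG]),
      QuotientGroup.mk'_surjective _⟩

theorem eP_apply (hF : Fintype.card F = 2) (hG : Good Q) (g : ↥(E Q)) : eP hF hG g = (g : P Q) := rfl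

/-- the action of isometries on `P Q` -/
noncomputable def Psi (hF : Fintype.card F = 2) (hG : Good Q) : ↥(O Q) →* MulAut (P Q) :=
  (MulAut.congr (eP hF hG)).toMonoidHom.comp (cEh Q)

theorem Psi_apply (hF : Fintype.card F = 2) (hG : Good Q) (h : ↥(O Q)) (g : ↥(E Q)) :
    Psi hF hG h (g : P Q) = ((cE h g : ↥(E Q)) : P Q) := by
  show eP hF hG (cE h ((eP hF hG).symm (g : P Q))) = _
  rw [← eP_apply hF hG, MulEquiv.symm_apply_apply]
  rfl

theorem coe_inj (hF : Fintype.card F = 2) (hG : Good Q) {a b : ↥(E Q)} (h : (a : P Q) = (b : P Q)) : a = b :=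
  (eP hF hG).injective h

/-- an isometry centralising `E Q` is trivial -/
theorem eq_one_of_cent (hF : Fintype.card F = 2) (hG : Good Q) (h : ↥(O Q)) (hc : cE h = 1) : h = 1 := by
  have hfix : ∀ u : V, Q u = 0 → (h : V ≃ₗ[F] V) u = u := by
    intro u hu
    by_cases hu0 : u = 0
    · rw [hu0, map_zero]
    have hu' : Q ((h : V ≃ₗ[F] V) u) = 0 := by rw [h.2 u, hu]
    have hu0' : (h : V ≃ₗ[F] V) u ≠ 0 := app_ne hu0
    have hker : KerScalar (MonoidHom.id ↥(E Q)) := by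
      intro g hg
      refine ⟨1, fun v => ?_⟩
      rw [show g = 1 from hg, one_smul]
      rfl
    obtain ⟨a, ha, he⟩ := point_unique (π := MonoidHom.id ↥(E Q)) hG hker hu hu' hu0 hu0' (by
      rw [Subgroup.map_id, Subgroup.map_id]
      have key : ∀ w (hw : polar Q u w = 0), ∃ hw' : polar Q ((h : V ≃ₗ[F] V) u) ((h : V ≃ₗ[F] V) w) = 0,
          sg Q u w hu hw = sg Q ((h : V ≃ₗ[F] V) u) ((h : V ≃ₗ[F] V) w) hu' hw' := by
        intro w hw
        have hw' : polar Q ((h : V ≃ₗ[F] V) u) ((h : V ≃ₗ[F] V) w) = 0 := by rw [polar_map h.2]; exact hw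
        refine ⟨hw', ?_⟩
        have h1 : cE h (sg Q u w hu hw) = sg Q u w hu hw := by rw [hc]; rfl
        rw [← h1]
        exact Subtype.ext (siegel_conj h.2 hu hw hu' hw')
      ext g
      constructor
      · rintro ⟨w, hw, rfl⟩
        obtain ⟨hw', h1⟩ := key w hw
        exact ⟨_, hw', h1⟩
      · rintro ⟨w, hw, rfl⟩
        obtain ⟨w, rfl⟩ := (h : V ≃ₗ[F] V).surjective w
        have hw' : polar Q u w = 0 := by rw [← polar_map h.2]; exact hw
        obtain ⟨_, h1⟩ := key w hw'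
        exact ⟨w, hw', h1.symm⟩)
    rcases eq01 hF a with rfl | rfl
    · exact absurd rfl ha
    · rw [he, one_smul]
  obtain ⟨x, y, hxy⟩ := hG.exists_hyp
  apply Subtype.ext
  refine LinearEquiv.ext fun v => ?_
  exact sing_induction hxy (P := fun v => (h : V ≃ₗ[F] V) v = v) (fun a c ha hc => by rw [map_add, ha, hc]) hfix v

theorem Psi_inj (hF : Fintype.card F = 2) (hG : Good Q) : Function.Injective (Psi hF hG) := by
  rw [injective_iff_map_eq_one]
  intro h hh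
  apply eq_one_of_cent hF hG h
  refine MulEquiv.ext fun g => ?_
  apply coe_inj hF hG
  rw [← Psi_apply hF hG, hh]
  rfl

/-- automorphisms permuting the point stabilisers are induced by isometries -/
theorem exists_isom (hF : Fintype.card F = 2) (hG : Good Q) (h7 : 7 ≤ finrank F V) (α : MulAut (P Q))
    (hα : ∀ x : V, Q x = 0 → x ≠ 0 → ∃ y, Q y = 0 ∧ y ≠ 0 ∧
      (stab hG (Submodule.span F {x})).map α.toMonoidHom = stab hG (Submodule.span F {y})) :
    ∃ h : ↥(O Q), Psi hF hG h = α := by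
  have hFf : Finite F := Finite.of_fintype F
  obtain ⟨M, σ, c, hM, h⟩ := Cfsg.Agent.ClassicalGeometry.OrthAut4.exists_semi_P hG h7 α hα
  have hσ : ∀ a : F, σ a = a := by
    intro a
    rcases eq01 hF a with rfl | rfl
    · exact map_zero σ
    · exact map_one σ
  have hc : c = 1 := (eq01 hF c).resolve_left hM.ne
  have hsm : ∀ (a : F) (v : V), M (a • v) = a • M v := fun a v => by rw [hM.smul, hσ]
  let T : V ≃ₗ[F] V := { M with map_smul' := hsm }
  have hT : T ∈ O Q := by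
    intro v
    show Q (M v) = Q v
    rw [hM.form, hc, one_mul, hσ]
  refine ⟨⟨T, hT⟩, ?_⟩
  refine MulEquiv.ext fun p => ?_
  obtain ⟨g, rfl⟩ := QuotientGroup.mk_surjective p
  rw [h g, Psi_apply]
  rfl

theorem pow_yz {G : Type*} [Group G] {y z : G} (h : y * z = z * y) (hy : y ^ 5 = 1) (hz : z ^ 3 = 1) :
    (y * z) ^ 6 = y ∧ (y * z) ^ 10 = z := by
  have hc : Commute y z := h
  constructor
  · rw [hc.mul_pow, show (6 : ℕ) = 5 + 1 by rfl, pow_add, hy, pow_one, one_mul, show (5 + 1 : ℕ) = 3 * 2 by rfl, pow_mul,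
      hz, one_pow, mul_one]
  · rw [hc.mul_pow, show (10 : ℕ) = 5 * 2 by rfl, pow_mul, hy, one_pow, one_mul, show (5 * 2 : ℕ) = 3 * 3 + 1 by rfl,
      pow_add, pow_mul, hz, one_pow, one_mul, pow_one]

theorem conj_eq_Psi (hF : Fintype.card F = 2) (hG : Good Q) (g : ↥(E Q)) :
    MulAut.conj (g : P Q) = Psi hF hG ⟨g, E_le_O g.2⟩ := by
  refine MulEquiv.ext fun p => ?_
  obtain ⟨k, rfl⟩ := QuotientGroup.mk_surjective p
  rw [Psi_apply]
  rfl

/-- the preimage of a solvable group of automorphisms -/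
theorem solv_comap (hF : Fintype.card F = 2) (hG : Good Q) {N : Subgroup (MulAut (P Q))} (hN : Group.IsSolvable N) :
    Group.IsSolvable ((N.comap (Psi hF hG)).map (O Q).subtype) := by
  have h1 : Group.IsSolvable (N.comap (Psi hF hG)) := by
    refine Group.isSolvable_of_isSolvable_injective (f := (Psi hF hG).subgroupComap N) ?_
    intro a b hab
    apply Subtype.ext
    apply Psi_inj hF hG
    exact congrArg Subtype.val hab
  exact Group.isSolvable_of_surjective (MonoidHom.subgroupMap_surjective (O Q).subtype _)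

variable {y z : V ≃ₗ[F] V} {U P' : Submodule F V} {u1 u2 : V}

/-- the element of order 15 -/
def ss (hyE : y ∈ E Q) (hzE : z ∈ E Q) : P Q := ((⟨y * z, mul_mem hyE hzE⟩ : ↥(E Q)) : P Q)

theorem conj_ss (hF : Fintype.card F = 2) (hG : Good Q) (C : Cfg Q y z U P' u1 u2) (hyE : y ∈ E Q) (hzE : z ∈ E Q)
    {N : Subgroup (MulAut (P Q))} (g : ↥(E Q)) (hN : MulAut.conj ((g : P Q) * ss hyE hzE * (g : P Q)⁻¹) ∈ N) :
    (g : V ≃ₗ[F] V) * y * (g : V ≃ₗ[F] V)⁻¹ ∈ (N.comap (Psi hF hG)).map (O Q).subtype ∧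
      (g : V ≃ₗ[F] V) * z * (g : V ≃ₗ[F] V)⁻¹ ∈ (N.comap (Psi hF hG)).map (O Q).subtype := by
  have h1 : (g : V ≃ₗ[F] V) * (y * z) * (g : V ≃ₗ[F] V)⁻¹ ∈ (N.comap (Psi hF hG)).map (O Q).subtype := by
    refine ⟨⟨_, E_le_O (mul_mem (mul_mem g.2 (mul_mem hyE hzE)) (inv_mem g.2))⟩, ?_, rfl⟩
    show Psi hF hG _ ∈ N
    have h2 := conj_eq_Psi hF hG (g * ⟨y * z, mul_mem hyE hzE⟩ * g⁻¹)
    have h3 : Psi hF hG ⟨_, E_le_O (mul_mem (mul_mem g.2 (mul_mem hyE hzE)) (inv_mem g.2))⟩ =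
      MulAut.conj ((g : P Q) * ss hyE hzE * (g : P Q)⁻¹) := h2.symm
    rw [h3]
    exact hN
  obtain ⟨e1, e2⟩ := pow_yz C.yz C.y5 C.z3
  constructor
  · have h2 := pow_mem h1 6
    rwa [conj_pow, e1] at h2
  · have h2 := pow_mem h1 10
    rwa [conj_pow, e2] at h2

/-- **Case 1.** -/
theorem case_one (hF : Fintype.card F = 2) (hN : Num Q) (C : Cfg Q y z U P' u1 u2) (hyE : y ∈ E Q) (hzE : z ∈ E Q)
    (h : ↥(O Q)) (hp : (orderOf (Psi hF hN.good h)).Prime) :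
    ∃ B : Set (P Q), (∀ g : P Q, Group.IsSolvable (closure ({Psi hF hN.good h, MulAut.conj (g * ss hyE hzE * g⁻¹)} :
      Set (MulAut (P Q)))) → g ∈ B) ∧ 2 * B.ncard < Nat.card (P Q) := by
  have hord : orderOf (Psi hF hN.good h) = orderOf h := orderOf_injective _ (Psi_inj hF hN.good) h
  rw [hord] at hp
  have hx1 : (h : V ≃ₗ[F] V) ≠ 1 := by
    intro h1
    have : h = 1 := Subtype.ext h1
    rw [this, orderOf_one] at hp
    exact Nat.not_prime_one hp
  obtain ⟨B, hB, hB2⟩ := bad_bound C hN h.2 hx1 hp (by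
    have h1 := congrArg Subtype.val (pow_orderOf_eq_one h)
    exact h1)
  refine ⟨eP hF hN.good '' B, ?_, ?_⟩
  · intro g hg
    obtain ⟨g, rfl⟩ := QuotientGroup.mk_surjective g
    refine ⟨g, hB ?_, rfl⟩
    set N := closure ({Psi hF hN.good h, MulAut.conj ((g : P Q) * ss hyE hzE * (g : P Q)⁻¹)} :
      Set (MulAut (P Q))) with hNd
    obtain ⟨h1, h2⟩ := conj_ss hF hN.good C hyE hzE (N := N) g (subset_closure (Or.inr rfl))
    refine ⟨(N.comap (Psi hF hN.good)).map (O Q).subtype, Subgroup.map_subtype_le _, solv_comap hF hN.good hg,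
      ⟨h, ?_, rfl⟩, h1, h2⟩
    exact subset_closure (Or.inl rfl)
  · rw [Set.ncard_image_of_injective _ (eP hF hN.good).injective, ← Nat.card_congr (eP hF hN.good).toEquiv]
    exact hB2

/-- an element of order 5 stabilising a totally singular 4-space has no nonzero fixed vector -/
theorem no_fix (hF : Fintype.card F = 2) (hG : Good Q) (h8 : finrank F V = 8) {h : V ≃ₗ[F] V} (hO : h ∈ O Q)
    (h5 : h ^ 5 = 1) (h1 : h ≠ 1) {W : Submodule F V} (hTS : TS Q W) (hW4 : finrank F W = 4)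
    (hW : ∀ w ∈ W, h w ∈ W) {v : V} (hv : h v = v) : v = 0 := by
  by_contra hv0
  have h5' : ((LinearMap.GeneralLinearGroup.generalLinearEquiv F V).symm h : V →ₗ[F] V) ^ 5 ^ 1 = 1 := by
    have : ((LinearMap.GeneralLinearGroup.generalLinearEquiv F V).symm h) ^ 5 = 1 := by
      rw [← map_pow, h5, map_one]
    rw [pow_one, ← Units.val_pow_eq_pow_val, this]; rfl
  set hl : V →ₗ[F] V := ((LinearMap.GeneralLinearGroup.generalLinearEquiv F V).symm h : V →ₗ[F] V) with hhl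
  have hap : ∀ v, hl v = h v := fun v => rfl
  have hFV := finrank_fix (by norm_num) (by rw [hF]; norm_num) h5' ⊤ (fun _ _ => Submodule.mem_top)
  have hFW := finrank_fix (by norm_num) (by rw [hF]; norm_num) h5' W hW
  rw [hF, ord_two_five] at hFV hFW
  rw [top_inf_eq, finrank_top, h8] at hFV
  rw [hW4] at hFW
  have hfle : finrank F ↥(fixS hl) ≤ 8 := h8 ▸ Submodule.finrank_le _
  have hf8 : finrank F ↥(fixS hl) ≠ 8 := by
    intro h2
    apply h1
    have h3 : fixS hl = ⊤ := Submodule.eq_top_of_finrank_eq (h2.trans h8.symm)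
    refine LinearEquiv.ext fun w => ?_
    have : w ∈ fixS hl := h3 ▸ Submodule.mem_top
    exact this
  have hf0 : finrank F ↥(fixS hl) ≠ 0 := by
    intro h2
    have h3 : fixS hl = ⊥ := Submodule.finrank_eq_zero.1 h2
    have : v ∈ fixS hl := hv
    rw [h3] at this
    exact hv0 this
  have hf4 : finrank F ↥(fixS hl) = 4 := by
    obtain ⟨k, hk⟩ := hFV
    omega
  have hrn := LinearMap.finrank_range_add_finrank_ker ((h : V →ₗ[F] V) - 1)
  have hker : LinearMap.ker ((h : V →ₗ[F] V) - 1) = fixS hl := by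
    ext w
    rw [LinearMap.mem_ker, LinearMap.sub_apply, Module.End.one_apply, sub_eq_zero]
    rfl
  rw [hker, hf4, h8] at hrn
  have hR4 : finrank F (RR h) = 4 := by
    have h2 : finrank F (RR h) + 4 = 8 := hrn
    omega
  -- `fixS ⊓ RR = ⊥`
  have hint : fixS hl ⊓ RR h = ⊥ := by
    rw [Submodule.eq_bot_iff]
    rintro r ⟨hr1, hr2⟩
    have hr1 : h r = r := hr1
    obtain ⟨a, ha⟩ := mem_RR.1 hr2
    have ha1 : h a = a + r := by rw [← ha]; abel
    have ha2 : (h ^ 5) a = a + r + r + r + r + r := by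
      show h (h (h (h (h a)))) = _
      rw [ha1]
      simp only [map_add, ha1, hr1]
    rw [h5] at ha2
    have ha3 : a = a + r + r + r + r + r := ha2
    have e1 := self_add hF r
    have e2 : a + r + r + r + r + r = a + (r + r) + (r + r) + r := by abel
    rw [e2, e1, add_zero, add_zero] at ha3
    exact (left_eq_add.1 ha3)
  have hsup : fixS hl ⊔ RR h = ⊤ := by
    have e1 := Submodule.finrank_sup_add_finrank_inf_eq (fixS hl) (RR h)
    rw [hint, finrank_bot, hf4, hR4] at e1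
    exact Submodule.eq_top_of_finrank_eq (by omega)
  have hWn : Nontrivial W := Module.nontrivial_of_finrank_pos (R := F) (by rw [hW4]; norm_num)
  obtain ⟨⟨w, hw⟩, hw0⟩ := exists_ne (0 : W)
  have hw0 : w ≠ 0 := fun h => hw0 (Subtype.ext h)
  apply hw0
  apply hG.nondeg
  intro x
  obtain ⟨c, hc, r, hr, rfl⟩ := Submodule.mem_sup.1 (hsup ▸ (Submodule.mem_top : x ∈ ⊤))
  have hle : finrank F ↥(W ⊓ fixS hl) ≤ 4 := hW4 ▸ Submodule.finrank_mono inf_le_left
  rcases Nat.eq_zero_or_pos (finrank F ↥(W ⊓ fixS hl)) with h0 | hpos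
  · have h0' : W ⊓ fixS hl = ⊥ := Submodule.finrank_eq_zero.1 h0
    have hWR : W ≤ RR h := by
      have hinj : LinearMap.ker (((h : V →ₗ[F] V) - 1).restrict (p := W) (q := W)
          (fun v hv => sub_mem (hW v hv) hv)) = ⊥ := by
        rw [LinearMap.ker_eq_bot']
        intro b hb
        have h2 : h b - b = 0 := congrArg Subtype.val hb
        have h3 : (b : V) ∈ W ⊓ fixS hl := ⟨b.2, sub_eq_zero.1 h2⟩
        rw [h0', Submodule.mem_bot] at h3
        exact Subtype.ext h3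
      intro b hb
      obtain ⟨c, hc⟩ := (LinearMap.injective_iff_surjective.1 (LinearMap.ker_eq_bot.1 hinj)) ⟨b, hb⟩
      exact mem_RR.2 ⟨c, congrArg Subtype.val hc⟩
    have hWe : W = RR h := Submodule.eq_of_le_of_finrank_eq hWR (hW4.trans hR4.symm)
    rw [polar_add_right, polar_comm Q w c, polar_RR hO hc (hWR hw), hTS.polar hw (hWe ▸ hr), add_zero]
  · have h4 : finrank F ↥(W ⊓ fixS hl) = 4 := by
      obtain ⟨k, hk⟩ := hFW
      omega
    have h5 : W ⊓ fixS hl = W := Submodule.eq_of_le_of_finrank_eq inf_le_left (h4.trans hW4.symm)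
    have hWf : W ≤ fixS hl := by rw [← h5]; exact inf_le_right
    have hWe : W = fixS hl := Submodule.eq_of_le_of_finrank_eq hWf (hW4.trans hf4.symm)
    rw [polar_add_right, hTS.polar hw (hWe ▸ hc), polar_RR hO (hWf hw) hr, add_zero]

/-- a solvable group containing conjugates of `y` and `z` has a nonzero fixed vector -/
theorem fix_conj (C : Cfg Q y z U P' u1 u2) {M : Subgroup (V ≃ₗ[F] V)} (hMO : M ≤ O Q) (hsol : Group.IsSolvable M)
    (g : ↥(E Q)) (hyM : (g : V ≃ₗ[F] V) * y * (g : V ≃ₗ[F] V)⁻¹ ∈ M)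
    (hzM : (g : V ≃ₗ[F] V) * z * (g : V ≃ₗ[F] V)⁻¹ ∈ M) : ∃ v : V, v ≠ 0 ∧ ∀ m ∈ M, m v = v := by
  have hfin : Finite (V ≃ₗ[F] V) := finite_GL
  set k : V ≃ₗ[F] V := (g : V ≃ₗ[F] V) with hk
  have hkO : k ∈ O Q := E_le_O g.2
  set M' := M.map (MulAut.conj k⁻¹).toMonoidHom with hM'
  have hmem : ∀ m : V ≃ₗ[F] V, k * m * k⁻¹ ∈ M → m ∈ M' := fun m hm => ⟨_, hm, by
    show k⁻¹ * (k * m * k⁻¹) * k⁻¹⁻¹ = m
    group⟩
  have hM'O : M' ≤ O Q := by
    rintro _ ⟨m, hm, rfl⟩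
    exact mul_mem (mul_mem (inv_mem hkO) (hMO hm)) (inv_mem (inv_mem hkO))
  have hsol' : Group.IsSolvable M' :=
    Group.isSolvable_of_surjective (MonoidHom.subgroupMap_surjective (MulAut.conj k⁻¹).toMonoidHom M)
  obtain ⟨w, hw, hMw⟩ := C.fix_exists hsol' hM'O (hmem y hyM) (hmem z hzM)
  refine ⟨k w, app_ne (w_ne C hw), ?_⟩
  intro m hm
  have h1 := hMw (k⁻¹ * m * k) (hmem _ (by
    have : k * (k⁻¹ * m * k) * k⁻¹ = m := by group
    rw [this]; exact hm))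
  have h2 : k⁻¹ (m (k w)) = w := h1
  have h3 := congrArg k h2
  rwa [app_inv'] at h3

/-- **Case 2.** -/
theorem case_two (hF : Fintype.card F = 2) (hG : Good Q) (C : Cfg Q y z U P' u1 u2) (hyE : y ∈ E Q) (hzE : z ∈ E Q)
    (α : MulAut (P Q))
    (hα : ¬ ∀ x : V, Q x = 0 → x ≠ 0 → ∃ y, Q y = 0 ∧ y ≠ 0 ∧
      (stab hG (Submodule.span F {x})).map α.toMonoidHom = stab hG (Submodule.span F {y})) (g : P Q)
    (hs : Group.IsSolvable (closure ({α, MulAut.conj (g * ss hyE hzE * g⁻¹)} : Set (MulAut (P Q))))) : False := by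
  have hFf : Finite F := Finite.of_fintype F
  push Not at hα
  obtain ⟨x0, hx0, hx00, hno⟩ := hα
  have hd := Cfsg.Agent.ClassicalGeometry.OrthAut3.dichotomy hG (by rw [C.dim]; norm_num) α hx0 hx00
  rcases hd with ⟨y', hy', hy0, he⟩ | ⟨h8, W, hTS, hW4, hst⟩
  · exact hno y' hy' hy0 he
  obtain ⟨g, rfl⟩ := QuotientGroup.mk_surjective g
  set N := closure ({α, MulAut.conj ((g : P Q) * ss hyE hzE * (g : P Q)⁻¹)} : Set (MulAut (P Q))) with hNd
  obtain ⟨hM1, hM2⟩ := conj_ss hF hG C hyE hzE (N := N) g (subset_closure (Or.inr rfl))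
  have hαN : α ∈ N := subset_closure (Or.inl rfl)
  set M := (N.comap (Psi hF hG)).map (O Q).subtype with hMd
  have hMO : M ≤ O Q := Subgroup.map_subtype_le _
  obtain ⟨v, hv0, hv⟩ := fix_conj C hMO (solv_comap hF hG hs) g hM1 hM2
  -- the conjugate of `y` in `P Q`
  set yE : ↥(E Q) := g * ⟨y, hyE⟩ * g⁻¹ with hyEd
  have hyN : MulAut.conj (yE : P Q) ∈ N := by
    obtain ⟨m, hm, he⟩ := hM1
    rw [conj_eq_Psi hF hG]
    have h1 : m = ⟨yE, E_le_O yE.2⟩ := Subtype.ext he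
    rw [← h1]
    exact hm
  -- its image under `α`
  obtain ⟨h1, hh1⟩ := QuotientGroup.mk_surjective (α (yE : P Q))
  have hh1N : MulAut.conj (h1 : P Q) ∈ N := by
    have h2 : MulAut.conj (h1 : P Q) = α * MulAut.conj (yE : P Q) * α⁻¹ := by
      refine MulEquiv.ext fun p => ?_
      show (h1 : P Q) * p * (h1 : P Q)⁻¹ = α ((yE : P Q) * (α⁻¹ p) * (yE : P Q)⁻¹)
      rw [map_mul, map_mul, map_inv, ← hh1]
      have h3 : α (α⁻¹ p) = p := MulEquiv.apply_symm_apply α p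
      rw [h3]
    rw [h2]
    exact mul_mem (mul_mem hαN hyN) (inv_mem hαN)
  have hh1M : (h1 : V ≃ₗ[F] V) ∈ M := by
    refine ⟨⟨h1, E_le_O h1.2⟩, ?_, rfl⟩
    show Psi hF hG _ ∈ N
    rw [← conj_eq_Psi hF hG]
    exact hh1N
  have hh1v : (h1 : V ≃ₗ[F] V) v = v := hv _ hh1M
  -- orders
  have hyE5 : yE ^ 5 = 1 := by
    rw [hyEd, conj_pow, show (⟨y, hyE⟩ : ↥(E Q)) ^ 5 = 1 from Subtype.ext C.y5]; group
  have hyE1 : yE ≠ 1 := by
    intro h
    have h2 : (⟨y, hyE⟩ : ↥(E Q)) = 1 := by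
      have : g⁻¹ * yE * g = ⟨y, hyE⟩ := by rw [hyEd]; group
      rw [← this, h]; group
    have h3 : y = 1 := congrArg Subtype.val h2
    have hUn : Nontrivial U := Module.nontrivial_of_finrank_pos (R := F) (by rw [C.hU]; norm_num)
    obtain ⟨u, hu⟩ := exists_ne (0 : U)
    exact hu (Subtype.ext (C.yUf u u.2 (by rw [h3]; rfl)))
  have hh15 : h1 ^ 5 = 1 := by
    apply coe_inj hF hG
    have h2 : ((h1 ^ 5 : ↥(E Q)) : P Q) = (h1 : P Q) ^ 5 := rfl
    have h3 : (h1 : P Q) = α (yE : P Q) := hh1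
    rw [h2, h3, ← map_pow]
    have h4 : (yE : P Q) ^ 5 = ((yE ^ 5 : ↥(E Q)) : P Q) := rfl
    rw [h4, hyE5]
    exact map_one α
  have hh11 : h1 ≠ 1 := by
    intro h
    apply hyE1
    apply coe_inj hF hG
    apply α.injective
    have h3 : (h1 : P Q) = α (yE : P Q) := hh1
    rw [← h3, h]
    exact (map_one α).symm
  -- `yE` fixes the singular point `g u1`
  have hgu : (yE : V ≃ₗ[F] V) ((g : V ≃ₗ[F] V) u1) = (g : V ≃ₗ[F] V) u1 := by
    show (g : V ≃ₗ[F] V) (y ((g : V ≃ₗ[F] V)⁻¹ ((g : V ≃ₗ[F] V) u1))) = _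
    rw [inv_app', C.y1]
  obtain ⟨k, hkE, hk⟩ := hG.trans_norm hx00 (app_ne (g := (g : V ≃ₗ[F] V)) C.hyp.left_ne)
    (by rw [hx0, Qmap g.2, C.hyp.left])
  set kE : ↥(E Q) := ⟨k, hkE⟩ with hkEd
  have hstab : ((kE⁻¹ * yE * kE : ↥(E Q)) : P Q) ∈ stab hG (Submodule.span F {x0}) := by
    apply mem_stab_of_map_le
    intro w hw
    obtain ⟨c, rfl⟩ := Submodule.mem_span_singleton.1 hw
    have h2 : ((kE⁻¹ * yE * kE : ↥(E Q)) : V ≃ₗ[F] V) x0 = x0 := by
      show k⁻¹ ((yE : V ≃ₗ[F] V) (k x0)) = x0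
      rw [hk, hgu, ← hk, inv_app']
    rw [map_smul, h2]
    exact Submodule.smul_mem _ c (Submodule.mem_span_singleton_self x0)
  have hstab2 : α ((kE⁻¹ * yE * kE : ↥(E Q)) : P Q) ∈ stab hG W := by
    rw [← hst]
    exact ⟨_, hstab, rfl⟩
  obtain ⟨k', hk'⟩ := QuotientGroup.mk_surjective (α (kE : P Q))
  have hk' : (k' : P Q) = α (kE : P Q) := hk'
  have hh1' : (h1 : P Q) = α (yE : P Q) := hh1
  have hstab3 : ((k'⁻¹ * h1 * k' : ↥(E Q)) : P Q) ∈ stab hG W := by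
    have h2 : ((k'⁻¹ * h1 * k' : ↥(E Q)) : P Q) = α ((kE⁻¹ * yE * kE : ↥(E Q)) : P Q) := by
      have e1 : ((k'⁻¹ * h1 * k' : ↥(E Q)) : P Q) = (k' : P Q)⁻¹ * (h1 : P Q) * (k' : P Q) := rfl
      have e2 : ((kE⁻¹ * yE * kE : ↥(E Q)) : P Q) = (kE : P Q)⁻¹ * (yE : P Q) * (kE : P Q) := rfl
      rw [e1, e2, map_mul, map_mul, map_inv, hk', hh1']
    rw [h2]
    exact hstab2
  have hfin := no_fix hF hG h8 (h := ((k'⁻¹ * h1 * k' : ↥(E Q)) : V ≃ₗ[F] V)) (E_le_O (k'⁻¹ * h1 * k').2) (by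
      have h2 : (k'⁻¹ * h1 * k') ^ 5 = 1 := by
        have h3 := conj_pow (a := k'⁻¹) (b := h1) (i := 5)
        rw [inv_inv] at h3
        rw [h3, hh15]; group
      exact congrArg Subtype.val h2) (by
      intro h2
      have h3 : k'⁻¹ * h1 * k' = 1 := Subtype.ext h2
      apply hh11
      have : h1 = k' * (k'⁻¹ * h1 * k') * k'⁻¹ := by group
      rw [this, h3]; group) hTS hW4 (fun w hw => apply_mem_of_mem_stab hstab3 hw)
    (v := (k' : V ≃ₗ[F] V)⁻¹ v) (by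
      show (k' : V ≃ₗ[F] V)⁻¹ ((h1 : V ≃ₗ[F] V) ((k' : V ≃ₗ[F] V) ((k' : V ≃ₗ[F] V)⁻¹ v))) = _
      rw [app_inv', hh1v])
  exact app_ne hv0 hfin

/-- **The row, abstractly.** -/
theorem as2_PQ (hF : Fintype.card F = 2) (hN : Num Q) (C : Cfg Q y z U P' u1 u2) (hyE : y ∈ E Q) (hzE : z ∈ E Q) :
    Cfsg.Agent.H965.AS.AS2 (P Q) := by
  have hFf : Finite F := Finite.of_fintype F
  have hfE := finite_E Q
  have hfP : Finite (P Q) := Finite.of_surjective _ (eP hF hN.good).surjective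
  refine Cfsg.Agent.H965.AS.AS2.of_count_frac (s := ss hyE hzE) fun x hx => ?_
  by_cases hα : ∀ v : V, Q v = 0 → v ≠ 0 → ∃ y, Q y = 0 ∧ y ≠ 0 ∧
      (stab hN.good (Submodule.span F {v})).map x.toMonoidHom = stab hN.good (Submodule.span F {y})
  · obtain ⟨h, rfl⟩ := exists_isom hF hN.good (by rw [C.dim]; norm_num) x hα
    exact case_one hF hN C hyE hzE h hx
  · refine ⟨∅, fun g hg => (case_two hF hN.good C hyE hzE x hα g hg).elim, ?_⟩
    rw [Set.ncard_empty, mul_zero]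
    exact Nat.card_pos

end Cfsg.Agent.H99.O8
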