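import Cfsg.Agent.H99.O8.Aut

/-!
# S3943, the row `Ω⁺₈(2)` (helper99): the element of order 15
-/

set_option autoImplicit false
set_option linter.unusedSectionVars false
set_option linter.unusedSimpArgs false

namespace Cfsg.Agent.H99.O8

open Module Subgroup QuadraticMap Cfsg.Agent.H518.DghpFix Cfsg.Agent.H99.AS Cfsg.Agent.LieClassical.OrthCore
  Cfsg.Agent.LieClassical.OrthTrans

universe u v w

variable {F : Type u} [Field F] [Fintype F] {V : Type v} [AddCommGroup V] [Module F V] [FiniteDimensional F V]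

/-- the Gram matrix of the basis -/
structure Gram (Q : QuadraticForm F V) (a1 a2 a3 a4 b1 b2 u1 u2 : V) : Prop where
  hF : Fintype.card F = 2
  good : Good Q
  dim : finrank F V = 8
  Q1 : Q a1 = 1
  Q2 : Q a2 = 1
  Q3 : Q a3 = 1
  Q4 : Q a4 = 1
  Qb1 : Q b1 = 1
  Qb2 : Q b2 = 1
  hyp : Hyp Q u1 u2
  p12 : polar Q a1 a2 = 1
  p23 : polar Q a2 a3 = 1
  p34 : polar Q a3 a4 = 1
  p13 : polar Q a1 a3 = 0
  p14 : polar Q a1 a4 = 0
  p24 : polar Q a2 a4 = 0
  pb : polar Q b1 b2 = 1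
  pab : ∀ a b, (a = a1 ∨ a = a2 ∨ a = a3 ∨ a = a4) → (b = b1 ∨ b = b2) → polar Q a b = 0
  pau : ∀ a b, (a = a1 ∨ a = a2 ∨ a = a3 ∨ a = a4) → (b = u1 ∨ b = u2) → polar Q a b = 0
  pbu : ∀ a b, (a = b1 ∨ a = b2) → (b = u1 ∨ b = u2) → polar Q a b = 0
  top : ∀ v, ∃ c1 c2 c3 c4 d1 d2 a b : F,
    v = (c1 • a1 + c2 • a2 + c3 • a3 + c4 • a4) + (d1 • b1 + d2 • b2) + (a • u1 + b • u2)

variable {Q : QuadraticForm F V}

/-- the reflection in a nonsingular vector over `F₂` -/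
theorem refl_two (hF : Fintype.card F = 2) {a : V} (ha : Q a = 1) (h : Q a ≠ 0) (x : V) :
    refl Q a h x = x + polar Q a x • a := by
  rw [refl_apply, ha, inv_one, one_mul, sub_eq_add_neg, neg_eq hF]

theorem ne_zero_of {c : F} (h : c = 1) : c ≠ 0 := by rw [h]; exact one_ne_zero

namespace Gram

variable {a1 a2 a3 a4 b1 b2 u1 u2 : V} (G : Gram Q a1 a2 a3 a4 b1 b2 u1 u2)
include G

/-- the element of order 5 -/
def yy : V ≃ₗ[F] V :=
  refl Q a1 (ne_zero_of G.Q1) * refl Q a2 (ne_zero_of G.Q2) * refl Q a3 (ne_zero_of G.Q3) * refl Q a4 (ne_zero_of G.Q4)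

/-- the element of order 3 -/
def zz : V ≃ₗ[F] V := refl Q b1 (ne_zero_of G.Qb1) * refl Q b2 (ne_zero_of G.Qb2)

theorem yy_apply (x : V) : G.yy x = refl Q a1 (ne_zero_of G.Q1) (refl Q a2 (ne_zero_of G.Q2)
    (refl Q a3 (ne_zero_of G.Q3) (refl Q a4 (ne_zero_of G.Q4) x))) := rfl

theorem zz_apply (x : V) : G.zz x = refl Q b1 (ne_zero_of G.Qb1) (refl Q b2 (ne_zero_of G.Qb2) x) := rfl

theorem p21 : polar Q a2 a1 = 1 := by rw [polar_comm, G.p12]
theorem p32 : polar Q a3 a2 = 1 := by rw [polar_comm, G.p23]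
theorem p43 : polar Q a4 a3 = 1 := by rw [polar_comm, G.p34]
theorem p31 : polar Q a3 a1 = 0 := by rw [polar_comm, G.p13]
theorem p41 : polar Q a4 a1 = 0 := by rw [polar_comm, G.p14]
theorem p42 : polar Q a4 a2 = 0 := by rw [polar_comm, G.p24]
theorem pb' : polar Q b2 b1 = 1 := by rw [polar_comm, G.pb]
theorem pself (x : V) : polar Q x x = 0 := polar_self0 G.hF x

theorem h11 : (1 : F) + 1 = 0 := by rw [one_add_one_eq_two, two_zero G.hF]

theorem y1 : G.yy a1 = a2 := by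
  simp only [yy_apply, refl_two G.hF G.Q1, refl_two G.hF G.Q2, refl_two G.hF G.Q3, refl_two G.hF G.Q4,
    polar_add_right, G.p12, G.p13, G.p14, G.p21, G.p23, G.p24, G.p31, G.p32, G.p34, G.p41, G.p42, G.p43, G.pself,
    zero_smul, one_smul, add_zero, zero_add, G.h11, polar_zero_right]
  linear_combination (norm := module) self_add G.hF a1

theorem y2 : G.yy a2 = a3 := by
  simp only [yy_apply, refl_two G.hF G.Q1, refl_two G.hF G.Q2, refl_two G.hF G.Q3, refl_two G.hF G.Q4,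
    polar_add_right, G.p12, G.p13, G.p14, G.p21, G.p23, G.p24, G.p31, G.p32, G.p34, G.p41, G.p42, G.p43, G.pself,
    zero_smul, one_smul, add_zero, zero_add, G.h11, polar_zero_right]
  linear_combination (norm := module) self_add G.hF a2

theorem y3 : G.yy a3 = a4 := by
  simp only [yy_apply, refl_two G.hF G.Q1, refl_two G.hF G.Q2, refl_two G.hF G.Q3, refl_two G.hF G.Q4,
    polar_add_right, G.p12, G.p13, G.p14, G.p21, G.p23, G.p24, G.p31, G.p32, G.p34, G.p41, G.p42, G.p43, G.pself,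
    zero_smul, one_smul, add_zero, zero_add, G.h11, polar_zero_right]
  linear_combination (norm := module) self_add G.hF a3

theorem y4 : G.yy a4 = a1 + a2 + a3 + a4 := by
  simp only [yy_apply, refl_two G.hF G.Q1, refl_two G.hF G.Q2, refl_two G.hF G.Q3, refl_two G.hF G.Q4,
    polar_add_right, G.p12, G.p13, G.p14, G.p21, G.p23, G.p24, G.p31, G.p32, G.p34, G.p41, G.p42, G.p43, G.pself,
    zero_smul, one_smul, add_zero, zero_add, G.h11, polar_zero_right]
  abel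

theorem z1 : G.zz b1 = b2 := by
  simp only [zz_apply, refl_two G.hF G.Qb1, refl_two G.hF G.Qb2, polar_add_right, G.pb, G.pb', G.pself,
    zero_smul, one_smul, add_zero, zero_add]
  linear_combination (norm := module) self_add G.hF b1

theorem z2 : G.zz b2 = b1 + b2 := by
  simp only [zz_apply, refl_two G.hF G.Qb1, refl_two G.hF G.Qb2, polar_add_right, G.pb, G.pb', G.pself,
    zero_smul, one_smul, add_zero, zero_add]
  abel

theorem y_fix {x : V} (h : ∀ a, (a = a1 ∨ a = a2 ∨ a = a3 ∨ a = a4) → polar Q a x = 0) : G.yy x = x := by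
  have e1 := h a1 (Or.inl rfl)
  have e2 := h a2 (Or.inr (Or.inl rfl))
  have e3 := h a3 (Or.inr (Or.inr (Or.inl rfl)))
  have e4 := h a4 (Or.inr (Or.inr (Or.inr rfl)))
  simp only [yy_apply, refl_two G.hF G.Q1, refl_two G.hF G.Q2, refl_two G.hF G.Q3, refl_two G.hF G.Q4, e1, e2, e3, e4,
    zero_smul, add_zero]

theorem z_fix {x : V} (h : ∀ a, (a = b1 ∨ a = b2) → polar Q a x = 0) : G.zz x = x := by
  have e1 := h b1 (Or.inl rfl)
  have e2 := h b2 (Or.inr rfl)
  simp only [zz_apply, refl_two G.hF G.Qb1, refl_two G.hF G.Qb2, e1, e2, zero_smul, add_zero]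

theorem y_b {b : V} (hb : b = b1 ∨ b = b2) : G.yy b = b := G.y_fix fun a ha => G.pab a b ha hb
theorem y_u {b : V} (hb : b = u1 ∨ b = u2) : G.yy b = b := G.y_fix fun a ha => G.pau a b ha hb
theorem z_a {a : V} (ha : a = a1 ∨ a = a2 ∨ a = a3 ∨ a = a4) : G.zz a = a := G.z_fix fun b hb => by
  rw [polar_comm]; exact G.pab a b ha hb
theorem z_u {b : V} (hb : b = u1 ∨ b = u2) : G.zz b = b := G.z_fix fun a ha => G.pbu a b ha hb

/-- a linear map fixing the basis is the identity -/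
theorem ext_one {g : V ≃ₗ[F] V} (h1 : g a1 = a1) (h2 : g a2 = a2) (h3 : g a3 = a3) (h4 : g a4 = a4) (h5 : g b1 = b1)
    (h6 : g b2 = b2) (h7 : g u1 = u1) (h8 : g u2 = u2) : g = 1 := by
  refine LinearEquiv.ext fun v => ?_
  obtain ⟨c1, c2, c3, c4, d1, d2, a, b, rfl⟩ := G.top v
  simp only [map_add, map_smul, h1, h2, h3, h4, h5, h6, h7, h8]
  rfl

theorem y_pow5 : G.yy ^ 5 = 1 := by
  have key : ∀ v, (G.yy ^ 5) v = G.yy (G.yy (G.yy (G.yy (G.yy v)))) := fun v => rfl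
  have hfix : ∀ {v}, G.yy v = v → (G.yy ^ 5) v = v := fun {v} h => by rw [key, h, h, h, h, h]
  have e1 : (G.yy ^ 5) a1 = a1 := by
    rw [key, G.y1, G.y2, G.y3, G.y4, map_add, map_add, map_add, G.y1, G.y2, G.y3, G.y4]
    linear_combination (norm := module) self_add G.hF a2 + self_add G.hF a3 + self_add G.hF a4
  have hcomm : ∀ v, (G.yy ^ 5) (G.yy v) = G.yy ((G.yy ^ 5) v) := fun v => rfl
  have step : ∀ a b, G.yy a = b → (G.yy ^ 5) a = a → (G.yy ^ 5) b = b := by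
    intro a b h1 h2
    have h3 := hcomm a
    rw [h2, h1] at h3
    exact h3
  have e2 := step _ _ G.y1 e1
  have e3 := step _ _ G.y2 e2
  have e4 := step _ _ G.y3 e3
  exact G.ext_one e1 e2 e3 e4 (hfix (G.y_b (Or.inl rfl))) (hfix (G.y_b (Or.inr rfl))) (hfix (G.y_u (Or.inl rfl)))
    (hfix (G.y_u (Or.inr rfl)))

theorem z_pow3 : G.zz ^ 3 = 1 := by
  have key : ∀ v, (G.zz ^ 3) v = G.zz (G.zz (G.zz v)) := fun v => rfl
  have hfix : ∀ {v}, G.zz v = v → (G.zz ^ 3) v = v := fun {v} h => by rw [key, h, h, h]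
  have e1 : (G.zz ^ 3) b1 = b1 := by
    rw [key, G.z1, G.z2, map_add, G.z1, G.z2]
    linear_combination (norm := module) self_add G.hF b2
  have hcomm : ∀ v, (G.zz ^ 3) (G.zz v) = G.zz ((G.zz ^ 3) v) := fun v => rfl
  have step : ∀ a b, G.zz a = b → (G.zz ^ 3) a = a → (G.zz ^ 3) b = b := by
    intro a b h1 h2
    have h3 := hcomm a
    rw [h2, h1] at h3
    exact h3
  have e2 := step _ _ G.z1 e1
  exact G.ext_one (hfix (G.z_a (Or.inl rfl))) (hfix (G.z_a (Or.inr (Or.inl rfl))))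
    (hfix (G.z_a (Or.inr (Or.inr (Or.inl rfl))))) (hfix (G.z_a (Or.inr (Or.inr (Or.inr rfl))))) e1 e2
    (hfix (G.z_u (Or.inl rfl))) (hfix (G.z_u (Or.inr rfl)))

theorem yz_comm : G.yy * G.zz = G.zz * G.yy := by
  refine LinearEquiv.ext fun v => ?_
  show G.yy (G.zz v) = G.zz (G.yy v)
  obtain ⟨c1, c2, c3, c4, d1, d2, a, b, rfl⟩ := G.top v
  simp only [map_add, map_smul, G.y1, G.y2, G.y3, G.y4, G.z1, G.z2, G.y_b (Or.inl rfl), G.y_b (Or.inr rfl),
    G.y_u (Or.inl rfl), G.y_u (Or.inr rfl), G.z_u (Or.inl rfl), G.z_u (Or.inr rfl), G.z_a (Or.inl rfl),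
    G.z_a (Or.inr (Or.inl rfl)), G.z_a (Or.inr (Or.inr (Or.inl rfl))), G.z_a (Or.inr (Or.inr (Or.inr rfl)))]

theorem yy_E : G.yy ∈ E Q := by
  have h1 := G.good.refl_mul_refl_mem (ne_zero_of G.Q2) (ne_zero_of G.Q1) (G.Q2.trans G.Q1.symm)
  have h2 := G.good.refl_mul_refl_mem (ne_zero_of G.Q4) (ne_zero_of G.Q3) (G.Q4.trans G.Q3.symm)
  have h3 := mul_mem h1 h2
  rw [← mul_assoc] at h3
  exact h3

theorem zz_E : G.zz ∈ E Q := G.good.refl_mul_refl_mem (ne_zero_of G.Qb2) (ne_zero_of G.Qb1) (G.Qb2.trans G.Qb1.symm)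

end Gram

/-- the span of four vectors -/
def UU (F : Type u) [Field F] {V : Type v} [AddCommGroup V] [Module F V] (a1 a2 a3 a4 : V) : Submodule F V :=
  LinearMap.range (Fintype.linearCombination F ![a1, a2, a3, a4])

/-- the span of two vectors -/
def PP (F : Type u) [Field F] {V : Type v} [AddCommGroup V] [Module F V] (b1 b2 : V) : Submodule F V :=
  LinearMap.range (Fintype.linearCombination F ![b1, b2])

omit [Fintype F] [FiniteDimensional F V] in
theorem mem_UU {a1 a2 a3 a4 v : V} : v ∈ UU F a1 a2 a3 a4 ↔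
    ∃ c1 c2 c3 c4 : F, v = c1 • a1 + c2 • a2 + c3 • a3 + c4 • a4 := by
  constructor
  · rintro ⟨c, rfl⟩
    refine ⟨c 0, c 1, c 2, c 3, ?_⟩
    rw [Fintype.linearCombination_apply, Fin.sum_univ_four]
    rfl
  · rintro ⟨c1, c2, c3, c4, rfl⟩
    refine ⟨![c1, c2, c3, c4], ?_⟩
    rw [Fintype.linearCombination_apply, Fin.sum_univ_four]
    rfl

omit [Fintype F] [FiniteDimensional F V] in
theorem mem_PP {b1 b2 v : V} : v ∈ PP F b1 b2 ↔ ∃ c1 c2 : F, v = c1 • b1 + c2 • b2 := by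
  constructor
  · rintro ⟨c, rfl⟩
    refine ⟨c 0, c 1, ?_⟩
    rw [Fintype.linearCombination_apply, Fin.sum_univ_two]
    rfl
  · rintro ⟨c1, c2, rfl⟩
    refine ⟨![c1, c2], ?_⟩
    rw [Fintype.linearCombination_apply, Fin.sum_univ_two]
    rfl

namespace Gram

variable {a1 a2 a3 a4 b1 b2 u1 u2 : V} (G : Gram Q a1 a2 a3 a4 b1 b2 u1 u2)
include G

theorem indepU {c1 c2 c3 c4 : F} (h : c1 • a1 + c2 • a2 + c3 • a3 + c4 • a4 = 0) :
    c1 = 0 ∧ c2 = 0 ∧ c3 = 0 ∧ c4 = 0 := by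
  have e1 := congrArg (polar Q a1) h
  have e2 := congrArg (polar Q a2) h
  have e3 := congrArg (polar Q a3) h
  have e4 := congrArg (polar Q a4) h
  simp only [polar_add_right, polar_smul_right, G.p12, G.p13, G.p14, G.p21, G.p23, G.p24, G.p31, G.p32, G.p34, G.p41,
    G.p42, G.p43, G.pself, polar_zero_right, smul_eq_mul, mul_zero, mul_one, add_zero, zero_add] at e1 e2 e3 e4
  rw [e4, add_zero] at e2
  rw [e1, zero_add] at e3
  exact ⟨e2, e1, e4, e3⟩

theorem indepP {c1 c2 : F} (h : c1 • b1 + c2 • b2 = 0) : c1 = 0 ∧ c2 = 0 := by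
  have e1 := congrArg (polar Q b1) h
  have e2 := congrArg (polar Q b2) h
  simp only [polar_add_right, polar_smul_right, G.pb, G.pb', G.pself, polar_zero_right, smul_eq_mul, mul_zero,
    mul_one, add_zero, zero_add] at e1 e2
  exact ⟨e2, e1⟩

theorem finrank_UU : finrank F (UU F a1 a2 a3 a4) = 4 := by
  have hinj : Function.Injective (Fintype.linearCombination F ![a1, a2, a3, a4]) := by
    rw [← LinearMap.ker_eq_bot, LinearMap.ker_eq_bot']
    intro c hc
    rw [Fintype.linearCombination_apply, Fin.sum_univ_four] at hc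
    obtain ⟨e1, e2, e3, e4⟩ := G.indepU hc
    funext i
    fin_cases i
    · exact e1
    · exact e2
    · exact e3
    · exact e4
  rw [UU, LinearMap.finrank_range_of_inj hinj, Module.finrank_fintype_fun_eq_card, Fintype.card_fin]

theorem finrank_PP : finrank F (PP F b1 b2) = 2 := by
  have hinj : Function.Injective (Fintype.linearCombination F ![b1, b2]) := by
    rw [← LinearMap.ker_eq_bot, LinearMap.ker_eq_bot']
    intro c hc
    rw [Fintype.linearCombination_apply, Fin.sum_univ_two] at hc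
    obtain ⟨e1, e2⟩ := G.indepP hc
    funext i
    fin_cases i
    · exact e1
    · exact e2
  rw [PP, LinearMap.finrank_range_of_inj hinj, Module.finrank_fintype_fun_eq_card, Fintype.card_fin]

theorem three : (3 : F) = 1 := by
  have h := two_zero G.hF
  linear_combination h

theorem QPval (c1 c2 : F) : Q (c1 • b1 + c2 • b2) = c1 * c1 + c2 * c2 + c1 * c2 := by
  rw [Q_add, QuadraticMap.map_smul, QuadraticMap.map_smul, polar_smul_left, polar_smul_right, G.Qb1, G.Qb2, G.pb]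
  simp only [smul_eq_mul]
  ring

theorem QUval (c1 c2 c3 c4 : F) : Q (c1 • a1 + c2 • a2 + c3 • a3 + c4 • a4) =
    c1 * c1 + c2 * c2 + c3 * c3 + c4 * c4 + c1 * c2 + c2 * c3 + c3 * c4 := by
  simp only [Q_add, QuadraticMap.map_smul, polar_smul_left, polar_smul_right, polar_add_left, G.Q1, G.Q2, G.Q3, G.Q4,
    G.p12, G.p13, G.p14, G.p23, G.p24, G.p34, smul_eq_mul]
  ring

theorem QU5 : {u | u ∈ UU F a1 a2 a3 a4 ∧ u ≠ 0 ∧ Q u = 0}.ncard ≤ 5 := by
  have hs : {u | u ∈ UU F a1 a2 a3 a4 ∧ u ≠ 0 ∧ Q u = 0} ⊆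
      {a1 + a3, a2 + a4, a1 + a4, a1 + a3 + a4, a1 + a2 + a4} := by
    rintro u ⟨hu, hu0, hQ⟩
    obtain ⟨c1, c2, c3, c4, rfl⟩ := mem_UU.1 hu
    rw [G.QUval] at hQ
    have h2 := two_zero G.hF
    rcases eq01 G.hF c1 with rfl | rfl <;> rcases eq01 G.hF c2 with rfl | rfl <;>
      rcases eq01 G.hF c3 with rfl | rfl <;> rcases eq01 G.hF c4 with rfl | rfl <;>
      simp only [zero_smul, one_smul, add_zero, zero_add, mul_zero, mul_one, zero_mul, one_mul, ne_eq,
        not_true_eq_false, one_ne_zero] at hQ hu0 ⊢ <;>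
      first
      | (exfalso; apply one_ne_zero (α := F); linear_combination hQ - h2)
      | (exfalso; apply one_ne_zero (α := F); linear_combination hQ - 2 * h2)
      | (exfalso; apply one_ne_zero (α := F); linear_combination hQ - 3 * h2)
      | simp
  refine (Set.ncard_le_ncard hs (Set.toFinite _)).trans ?_
  have f1 := Set.ncard_insert_le (a1 + a3) {a2 + a4, a1 + a4, a1 + a3 + a4, a1 + a2 + a4}
  have f2 := Set.ncard_insert_le (a2 + a4) {a1 + a4, a1 + a3 + a4, a1 + a2 + a4}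
  have f3 := Set.ncard_insert_le (a1 + a4) {a1 + a3 + a4, a1 + a2 + a4}
  have f4 := Set.ncard_insert_le (a1 + a3 + a4) {a1 + a2 + a4}
  have f5 := Set.ncard_singleton (a1 + a2 + a4)
  omega

/-- **The configuration.** -/
theorem cfg : Cfg Q G.yy G.zz (UU F a1 a2 a3 a4) (PP F b1 b2) u1 u2 where
  hF := G.hF
  nondeg := G.good.nondeg
  dim := G.dim
  hU := G.finrank_UU
  hP := G.finrank_PP
  yO := E_le_O G.yy_E
  zO := E_le_O G.zz_E
  y5 := G.y_pow5
  z3 := G.z_pow3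
  yz := G.yz_comm
  yU v := by
    obtain ⟨c1, c2, c3, c4, d1, d2, a, b, rfl⟩ := G.top v
    refine mem_UU.2 ⟨c4 - c1, c1 + c4 - c2, c2 + c4 - c3, c3, ?_⟩
    simp only [map_add, map_smul, G.y1, G.y2, G.y3, G.y4, G.y_b (Or.inl rfl), G.y_b (Or.inr rfl),
      G.y_u (Or.inl rfl), G.y_u (Or.inr rfl)]
    module
  yUf u hu h := by
    obtain ⟨c1, c2, c3, c4, rfl⟩ := mem_UU.1 hu
    simp only [map_add, map_smul, G.y1, G.y2, G.y3, G.y4] at h
    have h1 : (c4 - c1) • a1 + (c1 + c4 - c2) • a2 + (c2 + c4 - c3) • a3 + c3 • a4 = 0 := by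
      rw [← sub_eq_zero] at h
      rw [← h]
      module
    obtain ⟨e1, e2, e3, e4⟩ := G.indepU h1
    have h3 := G.three
    have f4 : c4 = 0 := by linear_combination (-c4) * h3 + e1 + e2 + e3 + e4
    have f1 : c1 = 0 := by linear_combination f4 - e1
    have f2 : c2 = 0 := by linear_combination f1 + f4 - e2
    rw [f1, f2, e4, f4]
    simp
  yP p hp := by
    obtain ⟨c1, c2, rfl⟩ := mem_PP.1 hp
    rw [map_add, map_smul, map_smul, G.y_b (Or.inl rfl), G.y_b (Or.inr rfl)]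
  y1 := G.y_u (Or.inl rfl)
  y2 := G.y_u (Or.inr rfl)
  zP v := by
    obtain ⟨c1, c2, c3, c4, d1, d2, a, b, rfl⟩ := G.top v
    refine mem_PP.2 ⟨d2 - d1, d1, ?_⟩
    simp only [map_add, map_smul, G.z1, G.z2, G.z_u (Or.inl rfl), G.z_u (Or.inr rfl), G.z_a (Or.inl rfl),
      G.z_a (Or.inr (Or.inl rfl)), G.z_a (Or.inr (Or.inr (Or.inl rfl))), G.z_a (Or.inr (Or.inr (Or.inr rfl)))]
    module
  zPf p hp h := by
    obtain ⟨c1, c2, rfl⟩ := mem_PP.1 hp
    simp only [map_add, map_smul, G.z1, G.z2] at h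
    have h1 : (c2 - c1) • b1 + c1 • b2 = 0 := by
      rw [← sub_eq_zero] at h
      rw [← h]
      module
    obtain ⟨e1, e2⟩ := G.indepP h1
    have f2 : c2 = 0 := by linear_combination e1 + e2
    rw [e2, f2]
    simp
  zU u hu := by
    obtain ⟨c1, c2, c3, c4, rfl⟩ := mem_UU.1 hu
    simp only [map_add, map_smul, G.z_a (Or.inl rfl),
      G.z_a (Or.inr (Or.inl rfl)), G.z_a (Or.inr (Or.inr (Or.inl rfl))), G.z_a (Or.inr (Or.inr (Or.inr rfl)))]
  z1 := G.z_u (Or.inl rfl)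
  z2 := G.z_u (Or.inr rfl)
  hyp := G.hyp
  UP u hu p hp := by
    obtain ⟨c1, c2, c3, c4, rfl⟩ := mem_UU.1 hu
    obtain ⟨d1, d2, rfl⟩ := mem_PP.1 hp
    have key := G.pab
    simp only [polar_add_left, polar_add_right, polar_smul_left, polar_smul_right]
    rw [key a1 b1 (Or.inl rfl) (Or.inl rfl), key a1 b2 (Or.inl rfl) (Or.inr rfl),
      key a2 b1 (Or.inr (Or.inl rfl)) (Or.inl rfl), key a2 b2 (Or.inr (Or.inl rfl)) (Or.inr rfl),
      key a3 b1 (Or.inr (Or.inr (Or.inl rfl))) (Or.inl rfl), key a3 b2 (Or.inr (Or.inr (Or.inl rfl))) (Or.inr rfl),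
      key a4 b1 (Or.inr (Or.inr (Or.inr rfl))) (Or.inl rfl), key a4 b2 (Or.inr (Or.inr (Or.inr rfl))) (Or.inr rfl)]
    simp
  U1 u hu := by
    obtain ⟨c1, c2, c3, c4, rfl⟩ := mem_UU.1 hu
    have key : ∀ a, (a = a1 ∨ a = a2 ∨ a = a3 ∨ a = a4) → polar Q u1 a = 0 := fun a ha => by
      rw [polar_comm]; exact G.pau a u1 ha (Or.inl rfl)
    simp only [polar_add_right, polar_smul_right]
    rw [key a1 (Or.inl rfl), key a2 (Or.inr (Or.inl rfl)), key a3 (Or.inr (Or.inr (Or.inl rfl))),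
      key a4 (Or.inr (Or.inr (Or.inr rfl)))]
    simp
  U2 u hu := by
    obtain ⟨c1, c2, c3, c4, rfl⟩ := mem_UU.1 hu
    have key : ∀ a, (a = a1 ∨ a = a2 ∨ a = a3 ∨ a = a4) → polar Q u2 a = 0 := fun a ha => by
      rw [polar_comm]; exact G.pau a u2 ha (Or.inr rfl)
    simp only [polar_add_right, polar_smul_right]
    rw [key a1 (Or.inl rfl), key a2 (Or.inr (Or.inl rfl)), key a3 (Or.inr (Or.inr (Or.inl rfl))),
      key a4 (Or.inr (Or.inr (Or.inr rfl)))]
    simp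
  P1 p hp := by
    obtain ⟨d1, d2, rfl⟩ := mem_PP.1 hp
    have key : ∀ a, (a = b1 ∨ a = b2) → polar Q u1 a = 0 := fun a ha => by
      rw [polar_comm]; exact G.pbu a u1 ha (Or.inl rfl)
    simp only [polar_add_right, polar_smul_right]
    rw [key b1 (Or.inl rfl), key b2 (Or.inr rfl)]
    simp
  P2 p hp := by
    obtain ⟨d1, d2, rfl⟩ := mem_PP.1 hp
    have key : ∀ a, (a = b1 ∨ a = b2) → polar Q u2 a = 0 := fun a ha => by
      rw [polar_comm]; exact G.pbu a u2 ha (Or.inr rfl)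
    simp only [polar_add_right, polar_smul_right]
    rw [key b1 (Or.inl rfl), key b2 (Or.inr rfl)]
    simp
  top v := by
    obtain ⟨c1, c2, c3, c4, d1, d2, a, b, rfl⟩ := G.top v
    exact ⟨_, mem_UU.2 ⟨c1, c2, c3, c4, rfl⟩, _, mem_PP.2 ⟨d1, d2, rfl⟩, a, b, rfl⟩
  QP p hp hp0 := by
    obtain ⟨d1, d2, rfl⟩ := mem_PP.1 hp
    rw [G.QPval]
    have h2 := two_zero G.hF
    rcases eq01 G.hF d1 with rfl | rfl <;> rcases eq01 G.hF d2 with rfl | rfl
    · exact absurd (by simp) hp0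
    · simp
    · simp
    · linear_combination h2
  QU := G.QU5

end Gram

end Cfsg.Agent.H99.O8
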