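import Cfsg.Agent.H99.O8.Elem
import Cfsg.Agent.AutOrth.Main
import Cfsg.Agent.LieClassical.QuadCount

/-!
# S3943, the row `Ω⁺₈(2)` (helper99)
-/

set_option autoImplicit false
set_option linter.unusedSectionVars false
set_option linter.unusedSimpArgs false

namespace Cfsg.Agent.H99.O8

open Module Subgroup QuadraticMap Cfsg.Agent.H518.DghpFix Cfsg.Agent.H99.AS Cfsg.Agent.LieClassical.OrthCore
  Cfsg.Agent.LieClassical.OrthTrans Cfsg.Agent.LieClassical.QuadForms

universe u v w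

variable {F : Type u} [Field F] [Fintype F]

/-- explicit vectors -/
def vec (x0 x1 x2 x3 y0 y1 y2 y3 : F) : Fin 4 ⊕ Fin 4 → F := Sum.elim ![x0, x1, x2, x3] ![y0, y1, y2, y3]

omit [Fintype F] in
theorem Q_vec (x0 x1 x2 x3 y0 y1 y2 y3 : F) :
    plusForm 4 F (vec x0 x1 x2 x3 y0 y1 y2 y3) = x0 * y0 + x1 * y1 + x2 * y2 + x3 * y3 := by
  rw [plusForm_apply, Fin.sum_univ_four]
  rfl

omit [Fintype F] in
theorem polar_vec (x0 x1 x2 x3 y0 y1 y2 y3 x0' x1' x2' x3' y0' y1' y2' y3' : F) :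
    polar (plusForm 4 F) (vec x0 x1 x2 x3 y0 y1 y2 y3) (vec x0' x1' x2' x3' y0' y1' y2' y3') =
      (x0 * y0' + x0' * y0) + (x1 * y1' + x1' * y1) + (x2 * y2' + x2' * y2) + (x3 * y3' + x3' * y3) := by
  rw [polar_plusForm, Fin.sum_univ_four]
  rfl

omit [Fintype F] in
theorem vec_comb (v : Fin 4 ⊕ Fin 4 → F) :
    v = vec (v (.inl 0)) (v (.inl 1)) (v (.inl 2)) (v (.inl 3)) (v (.inr 0)) (v (.inr 1)) (v (.inr 2)) (v (.inr 3)) := by
  funext i
  rcases i with i | i
  · fin_cases i <;> rfl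
  · fin_cases i <;> rfl

omit [Fintype F] in
theorem vec_add (x0 x1 x2 x3 y0 y1 y2 y3 x0' x1' x2' x3' y0' y1' y2' y3' : F) :
    vec x0 x1 x2 x3 y0 y1 y2 y3 + vec x0' x1' x2' x3' y0' y1' y2' y3' =
      vec (x0 + x0') (x1 + x1') (x2 + x2') (x3 + x3') (y0 + y0') (y1 + y1') (y2 + y2') (y3 + y3') := by
  funext i
  rcases i with i | i
  · fin_cases i <;> rfl
  · fin_cases i <;> rfl

omit [Fintype F] in
theorem vec_smul (c x0 x1 x2 x3 y0 y1 y2 y3 : F) :
    c • vec x0 x1 x2 x3 y0 y1 y2 y3 = vec (c * x0) (c * x1) (c * x2) (c * x3) (c * y0) (c * y1) (c * y2) (c * y3) := by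
  funext i
  rcases i with i | i
  · fin_cases i <;> rfl
  · fin_cases i <;> rfl

/-- the Gram matrix -/
theorem gram (hF : Fintype.card F = 2) : Gram (plusForm 4 F) (vec 0 1 1 0 0 0 1 0) (vec 0 0 1 0 0 1 1 0)
    (vec 1 1 1 0 0 0 1 0) (vec 1 0 0 0 1 0 0 0) (vec 0 0 1 0 0 0 1 0) (vec 0 1 1 0 0 1 0 0) (vec 0 0 0 1 0 0 0 0)
    (vec 0 0 0 0 0 0 0 1) := by
  have h2 : (1 : F) + 1 = 0 := by rw [one_add_one_eq_two, two_zero hF]
  have hFf : Finite F := Finite.of_fintype F
  exact
  { hF := hF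
    good := Cfsg.Agent.AutOrth.Main.good_plus (by norm_num)
    dim := by rw [Module.finrank_fintype_fun_eq_card]; rfl
    Q1 := by rw [Q_vec]; simp
    Q2 := by rw [Q_vec]; simp
    Q3 := by rw [Q_vec]; simp
    Q4 := by rw [Q_vec]; simp
    Qb1 := by rw [Q_vec]; simp
    Qb2 := by rw [Q_vec]; simp
    hyp := ⟨by rw [Q_vec]; simp, by rw [Q_vec]; simp, by rw [polar_vec]; simp⟩
    p12 := by rw [polar_vec]; simp [h2]
    p23 := by rw [polar_vec]; simp [h2]
    p34 := by rw [polar_vec]; simp [h2]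
    p13 := by rw [polar_vec]; simp [h2]
    p14 := by rw [polar_vec]; simp [h2]
    p24 := by rw [polar_vec]; simp [h2]
    pb := by rw [polar_vec]; simp [h2]
    pab := by
      rintro a b (rfl | rfl | rfl | rfl) (rfl | rfl) <;> rw [polar_vec] <;> simp [h2]
    pau := by
      rintro a b (rfl | rfl | rfl | rfl) (rfl | rfl) <;> rw [polar_vec] <;> simp [h2]
    pbu := by
      rintro a b (rfl | rfl) (rfl | rfl) <;> rw [polar_vec] <;> simp [h2]
    top := by
      intro v
      have h2' := two_zero hF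
      refine ⟨v (.inl 0) + v (.inr 0) + v (.inl 1) + v (.inl 2) + v (.inr 2), v (.inr 1) + v (.inl 2) + v (.inr 2),
        v (.inl 0) + v (.inr 0), v (.inr 0), v (.inl 1) + v (.inr 1) + v (.inr 2), v (.inl 2) + v (.inr 2),
        v (.inl 3), v (.inr 3), ?_⟩
      rw [vec_smul, vec_smul, vec_smul, vec_smul, vec_smul, vec_smul, vec_smul, vec_smul, vec_add, vec_add, vec_add,
        vec_add, vec_add, vec_add, vec_add]
      conv_lhs => rw [vec_comb v]
      congr 1
      · linear_combination (-(v (.inr 0))) * h2'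
      · linear_combination (-(v (.inl 0) + v (.inr 0) + v (.inl 2) + v (.inr 2))) * h2'
      · linear_combination (-(v (.inl 0) + v (.inr 0) + v (.inl 1) + v (.inl 2) + 2 * v (.inr 2) + v (.inr 1))) * h2'
      · ring
      · ring
      · linear_combination (-(v (.inl 2) + v (.inr 2))) * h2'
      · linear_combination (-(v (.inl 0) + v (.inr 0) + v (.inl 1) + v (.inl 2) + v (.inr 2) + v (.inr 1))) * h2'
      · ring }

/-- the numbers of vectors -/
theorem num (hF : Fintype.card F = 2) : Num (plusForm 4 F) where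
  good := by
    have hFf : Finite F := Finite.of_fintype F
    exact Cfsg.Agent.AutOrth.Main.good_plus (by norm_num)
  h135 := by
    classical
    have hFf : Finite F := Finite.of_fintype F
    have h1 := Cfsg.Agent.LieClassical.QuadCount.card_plus (F := F) 4 0
    rw [hF, if_pos rfl] at h1
    have h2 : {v : Fin 4 ⊕ Fin 4 → F | plusForm 4 F v = 0}.ncard = 136 := by
      have h3 : {v : Fin 4 ⊕ Fin 4 → F | plusForm 4 F v = 0}.ncard =
          Nat.card {v : Fin 4 ⊕ Fin 4 → F // Cfsg.quadFormPlus 4 F v = 0} := by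
        rw [← coe_plusForm]; rfl
      rw [h3]
      generalize Nat.card {v : Fin 4 ⊕ Fin 4 → F // Cfsg.quadFormPlus 4 F v = 0} = n at h1 ⊢
      norm_num at h1
      omega
    have h3 : {v : Fin 4 ⊕ Fin 4 → F | plusForm 4 F v = 0} =
        insert 0 {v : Fin 4 ⊕ Fin 4 → F | v ≠ 0 ∧ plusForm 4 F v = 0} := by
      ext v
      rw [Set.mem_insert_iff]
      constructor
      · intro hv
        by_cases h : v = 0
        · exact Or.inl h
        · exact Or.inr ⟨h, hv⟩
      · rintro (rfl | h)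
        · exact QuadraticMap.map_zero _
        · exact h.2
    rw [h3, Set.ncard_insert_of_notMem (fun h => h.1 rfl) (Set.toFinite _)] at h2
    omega
  h120 := by
    classical
    have hFf : Finite F := Finite.of_fintype F
    have h1 := Cfsg.Agent.LieClassical.QuadCount.card_plus (F := F) 4 1
    rw [hF, if_neg one_ne_zero] at h1
    have h3 : {v : Fin 4 ⊕ Fin 4 → F | plusForm 4 F v = 1}.ncard =
        Nat.card {v : Fin 4 ⊕ Fin 4 → F // Cfsg.quadFormPlus 4 F v = 1} := by
      rw [← coe_plusForm]; rfl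
    rw [h3]
    generalize Nat.card {v : Fin 4 ⊕ Fin 4 → F // Cfsg.quadFormPlus 4 F v = 1} = n at h1 ⊢
    norm_num at h1
    omega

/-- **The row `Ω⁺₈(2)`.** -/
theorem row {K : Type v} [Group K] [Finite K] {F : Type} [Field F] [Fintype F] (hF : Fintype.card F = 2)
    (e : K ≃* Cfsg.POmega F (Cfsg.quadFormPlus 4 F)) : Cfsg.Agent.H965.AS.AS2 K := by
  rw [← coe_plusForm] at e
  have G := gram (F := F) hF
  have h1 := as2_PQ hF (num hF) G.cfg G.yy_E G.zz_E
  have hfE := finite_E (plusForm 4 F)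
  have hfP : Finite (Cfsg.Agent.ClassicalGeometry.OrthAut1.P (plusForm 4 F)) :=
    Finite.of_surjective _ (eP hF G.good).surjective
  exact Cfsg.Agent.H965.AS.AS2.congr (e.trans (Cfsg.Agent.AutOrth.Main.pe G.good)).symm h1

end Cfsg.Agent.H99.O8
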